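import Mathlib
import Cfsg.Agent.Lib.Helper51.GL3.Defs

/-!
# S1906 package (W): a nonabelian 2-group has a central involution in its commutator subgroup
-/

set_option autoImplicit false

universe u

namespace Cfsg.Agent.Lib.Helper75.GL3

open scoped commutatorElement

/-- A nontrivial normal subgroup of a finite `p`-group meets the centre nontrivially. -/
theorem normal_inf_center_ne_bot {X : Type u} [Group X] [Finite X] {p : ℕ} [Fact p.Prime]
    (hX : IsPGroup p X) (N : Subgroup X) [hN : N.Normal] (hN1 : N ≠ ⊥) :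
    ∃ y ∈ N, y ∈ Subgroup.center X ∧ y ≠ 1 := by
  have hC : IsPGroup p (ConjAct X) := hX
  have hpN : p ∣ Nat.card N := by
    have hNp : IsPGroup p N := hX.to_subgroup N
    obtain ⟨n, hn⟩ := IsPGroup.iff_card.mp hNp
    have hn0 : n ≠ 0 := by
      rintro rfl
      rw [pow_zero] at hn
      exact hN1 ((Subgroup.card_eq_one).mp hn)
    rw [hn]
    exact dvd_pow_self p hn0
  obtain ⟨b, hb, hne⟩ :=
    hC.exists_fixed_point_of_prime_dvd_card_of_fixed_point (α := N) hpN (a := 1)
      (by intro g; simp)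
  refine ⟨b, b.2, ?_, ?_⟩
  · rw [Subgroup.mem_center_iff]
    intro g
    have h1 := hb (ConjAct.toConjAct g)
    have h2 : g * (b : X) * g⁻¹ = (b : X) := by
      have := congrArg Subtype.val h1
      rw [ConjAct.Subgroup.val_conj_smul, ConjAct.smul_def] at this
      simpa using this
    calc g * (b : X) = g * (b : X) * g⁻¹ * g := by group
      _ = (b : X) * g := by rw [h2]
  · intro h
    apply hne
    exact Subtype.ext h.symm

theorem derived_aux {X : Type u} [Group X] [Finite X] (hX : IsPGroup 2 X)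
    (hnab : ¬ ∀ a b : X, a * b = b * a) :
    ∃ w ∈ Subgroup.center X, w ∈ commutator X ∧ w ^ 2 = 1 ∧ w ≠ 1 := by
  haveI : Fact (Nat.Prime 2) := ⟨Nat.prime_two⟩
  have hc1 : commutator X ≠ ⊥ := by
    intro h
    apply hnab
    intro a b
    have hab : ⁅a, b⁆ ∈ commutator X := by
      rw [commutator_def]
      exact Subgroup.commutator_mem_commutator (Subgroup.mem_top a) (Subgroup.mem_top b)
    rw [h, Subgroup.mem_bot, commutatorElement_eq_one_iff_mul_comm] at hab
    exact hab
  have : (commutator X).Normal := by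
    rw [commutator_def]; infer_instance
  obtain ⟨y, hyN, hyZ, hy1⟩ := normal_inf_center_ne_bot hX (commutator X) hc1
  obtain ⟨k, hk⟩ := hX y
  -- order of y is 2 ^ m with m ≥ 1
  obtain ⟨m, hm⟩ : ∃ m, orderOf y = 2 ^ m := by
    have hdvd : orderOf y ∣ 2 ^ k := orderOf_dvd_of_pow_eq_one hk
    obtain ⟨m, -, hm⟩ := (Nat.dvd_prime_pow Nat.prime_two).mp hdvd
    exact ⟨m, hm⟩
  have hm0 : m ≠ 0 := by
    rintro rfl
    rw [pow_zero, orderOf_eq_one_iff] at hm
    exact hy1 hm
  obtain ⟨j, rfl⟩ : ∃ j, m = j + 1 := ⟨m - 1, by omega⟩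
  refine ⟨y ^ (2 ^ j), Subgroup.pow_mem _ hyZ _, Subgroup.pow_mem _ hyN _, ?_, ?_⟩
  · rw [← pow_mul, ← pow_succ, ← hm]
    exact pow_orderOf_eq_one y
  · intro h
    have hdvd : orderOf y ∣ 2 ^ j := orderOf_dvd_of_pow_eq_one h
    rw [hm] at hdvd
    have : 2 ^ (j + 1) ≤ 2 ^ j := Nat.le_of_dvd (by positivity) hdvd
    have : 2 ^ j < 2 ^ (j + 1) := Nat.pow_lt_pow_right (by norm_num) (by omega)
    omega

theorem lemDerived : Cfsg.Agent.Lib.Helper51.GL3.LemDerived.{u} := by
  intro X _ _ hX hnab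
  exact derived_aux hX hnab

end Cfsg.Agent.Lib.Helper75.GL3
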